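import Cfsg.Agent.H10.P3Basic
import Mathlib.Algebra.QuadraticAlgebra.Basic
import Mathlib.Data.ZMod.Basic

/-!
Explicit data for the subgroups `L₂(7) < A₇` of `U₃(5)`.
-/

set_option autoImplicit false

open Matrix

namespace Cfsg.Agent.H10.P3.U35

/-- The field with 25 elements. -/
abbrev R := QuadraticAlgebra (ZMod 5) 3 4

/-- Decoding of a field element. -/
def el (n : ℕ) : R := ⟨(n % 5 : ℕ), (n / 5 % 5 : ℕ)⟩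

/-- Decoding of a vector. -/
def dec (n : ℕ) : V3 R := ![el n, el (n / 25), el (n / 625)]

/-- The centres of the involutions of `A₇`. -/
def pts : List ℕ :=
  [625, 25, 6275, 3775, 13150, 1900, 5025, 11275, 1, 6251, 12501, 3751, 1251, 14376, 11876,
   3251, 751, 13876, 11376, 2626, 8876, 15126, 251, 13376, 10876, 5876, 3501, 6626, 10376, 7876,
   5376, 9126, 12251, 9876, 4876, 2376, 15501, 3151, 13151, 7526, 11901, 151, 2651, 4026, 13401,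
   4776, 14776, 526, 1151, 1776, 2401, 9426, 10051, 10676, 8176, 11301, 11926, 15051, 7051,
   15176, 3426, 926, 13426, 4676, 7801, 2176, 12176, 7926, 15426, 4301, 2426, 76, 8201, 201,
   3326, 3951, 7076, 4576, 5201, 5826, 13451, 11576, 451, 7951, 3701, 13701, 8076, 11201, 2451,
   14951, 12451, 12601, 15101, 3351, 7726, 2101, 12101, 13476, 14101, 14726, 15351, 1101, 11101,
   2476, 11851]

/-- The involution generating `L₂(7)`. -/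
def mA : M3 R := !![⟨1, 0⟩, ⟨0, 1⟩, ⟨4, 4⟩; 0, ⟨4, 0⟩, 0; 0, 0, ⟨4, 0⟩]
/-- The element of order three generating `L₂(7)`. -/
def mB : M3 R := !![0, 0, 1; 1, 0, 0; 0, 1, 0]
/-- An element of order five of `A₇`. -/
def mS : M3 R := !![⟨3, 0⟩, ⟨1, 0⟩, ⟨1, 3⟩; ⟨2, 1⟩, ⟨1, 3⟩, ⟨4, 3⟩; ⟨1, 2⟩, ⟨3, 4⟩, ⟨4, 2⟩]
/-- An element outside `A₇`. -/
def mR : M3 R := !![⟨4, 0⟩, ⟨0, 0⟩, ⟨0, 0⟩; ⟨4, 1⟩, ⟨3, 4⟩, ⟨2, 1⟩; ⟨3, 3⟩, ⟨2, 0⟩, ⟨2, 1⟩]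
/-- The invariant Hermitian form. -/
def mJ : M3 R := !![⟨2, 0⟩, ⟨4, 4⟩, ⟨0, 1⟩; ⟨0, 1⟩, ⟨2, 0⟩, ⟨4, 4⟩; ⟨4, 4⟩, ⟨0, 1⟩, ⟨2, 0⟩]
/-- The inverse of the Gram matrix. -/
def mI : M3 R := !![⟨2, 0⟩, ⟨0, 1⟩, ⟨4, 4⟩; ⟨4, 4⟩, ⟨2, 0⟩, ⟨0, 1⟩; ⟨0, 1⟩, ⟨4, 4⟩, ⟨2, 0⟩]

theorem pts_inv : ∀ g ∈ [mA, mB, mS], ∀ n ∈ pts, ∃ m ∈ pts, (g *ᵥ dec n) ⨯₃ dec m = 0 := by
  decide +kernel

theorem pts_out : 625 ∈ pts ∧ ∀ m ∈ pts, (mR *ᵥ dec 625) ⨯₃ dec m ≠ 0 ∧ dec m ≠ 0 := by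
  decide +kernel

theorem isom : ∀ g ∈ [mA, mB, mS, mR], gᵀ * mJ * g.map (· ^ 5) = mJ ∧ g.det = 1 := by
  simp only [det_fin_three]
  decide +kernel

theorem facts : mJ * mI = 1 ∧ mS ^ 5 = 1 ∧ mS ≠ 1 ∧ mJ.det = 1 := by
  simp only [det_fin_three]
  decide +kernel

theorem pow_24 (x : R) (h : x ≠ 0) : x ^ 24 = 1 :=
  (by decide +kernel : ∀ a b : ZMod 5, (⟨a, b⟩ : R) ≠ 0 → (⟨a, b⟩ : R) ^ 24 = 1) x.re x.im h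

end Cfsg.Agent.H10.P3.U35
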