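import Cfsg.Agent.H10.UTrans
import Cfsg.Agent.H99.ExclSL2

/-! Field subalgebras closed under unitary adjoints; normalisers of Singer cycles in `SU`. -/

set_option autoImplicit false
set_option linter.unusedSectionVars false
set_option linter.style.haveILetI false

namespace Cfsg.Agent.H10

open Cfsg Cfsg.Geo Cfsg.Agent.H98 Cfsg.Agent.H99 Matrix

variable {F : Type*} [Field F] [Fintype F] {q : ℕ} [hF : Fact (Fintype.card F = q ^ 2)] {n : ℕ}

local notation "σ" => cj F q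
local notation "𝐡" => hermForm n F q

/-- a field with `q ^ 2` elements has only one involutory automorphism -/
theorem invol_eq_cj (τ : F →+* F) (h2 : ∀ x, τ (τ x) = x) {y : F} (hy : τ y ≠ y) (x : F) :
    τ x = σ x := by
  let F₁ : Subfield F := τ.eqLocusField (RingHom.id F)
  have hm : ∀ a, a ∈ F₁ ↔ τ a = a := fun _ => Iff.rfl
  have h0 : y - τ y ≠ 0 := sub_ne_zero.2 hy.symm
  have h0' : τ y - y ≠ 0 := sub_ne_zero.2 hy
  have hc : Fintype.card F = Nat.card F₁ ^ 2 := by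
    rw [sq, ← Nat.card_prod, ← Nat.card_eq_fintype_card]
    refine (Nat.card_congr (Equiv.ofBijective (fun p : F₁ × F₁ => (p.1 : F) + p.2 * y)
      ⟨fun a b hab => ?_, fun z => ?_⟩)).symm
    · have h1 := congrArg τ hab
      simp only [map_add, map_mul, (hm _).1 a.1.2, (hm _).1 a.2.2, (hm _).1 b.1.2,
        (hm _).1 b.2.2] at h1
      have h3 : (a.2 : F) = b.2 := mul_right_cancel₀ h0 (by linear_combination hab - h1)
      simp only [h3, add_left_inj] at hab
      exact Prod.ext (Subtype.ext hab) (Subtype.ext h3)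
    · refine ⟨(⟨z - (z - τ z) / (y - τ y) * y, (hm _).2 ?_⟩, ⟨(z - τ z) / (y - τ y), (hm _).2 ?_⟩),
        by simp⟩
      · simp only [map_sub, map_mul, map_div₀, h2]
        field_simp
        ring
      · simp only [map_sub, map_div₀, h2]
        field_simp
        ring
  have h1 := (mem_iff_cj_of_card (q := q) hc _).1 ((hm (x + τ x)).2 (by rw [map_add, h2, add_comm]))
  have h3 := (mem_iff_cj_of_card (q := q) hc _).1 ((hm (x * τ x)).2 (by rw [map_mul, h2, mul_comm]))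
  rw [map_add] at h1
  rw [map_mul] at h3
  have h4 : (σ x - x) * (σ x - τ x) = 0 := by linear_combination σ x * h1 - h3
  rcases mul_eq_zero.1 h4 with h | h
  · have h5 := sub_eq_zero.1 h
    rw [h5, (hm x).1 ((mem_iff_cj_of_card hc x).2 h5)]
  · exact (sub_eq_zero.1 h).symm

theorem adj_mem_of_closed {K : Subalgebra F (Matrix (Fin n) (Fin n) F)}
    (ha : IsAdjointClosedFor 𝐡 K) {k : Matrix (Fin n) (Fin n) F} (hk : k ∈ K) :
    adj (sig F q) 𝐡 k ∈ K := by
  obtain ⟨k', hk', h⟩ := ha k hk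
  rwa [isSesq_herm.adj_unique h]

omit hF in
theorem card_fieldSub {ι : Type} [Fintype ι] [DecidableEq ι] {r : ℕ}
    {K : Subalgebra F (Matrix ι ι F)} (hK : IsFieldSubalgebra r K) :
    Nat.card K = Fintype.card F ^ r := by
  rw [Module.natCard_eq_pow_finrank (K := F), hK.finrank_eq, Nat.card_eq_fintype_card]

theorem adj_eq_pow (hn : 0 < n) {r : ℕ} {K : Subalgebra F (Matrix (Fin n) (Fin n) F)}
    (hK : IsFieldSubalgebra r K) (ha : IsAdjointClosedFor 𝐡 K) {k : Matrix (Fin n) (Fin n) F}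
    (hk : k ∈ K) : adj (sig F q) 𝐡 k = k ^ q ^ r := by
  haveI : Nonempty (Fin n) := ⟨⟨0, hn⟩⟩
  letI : Field K := (isField_of_isFld hK.comm hK.inv).toField
  haveI : Fintype K := Fintype.ofFinite K
  haveI : Fact (Fintype.card K = (q ^ r) ^ 2) := ⟨by
    rw [← Nat.card_eq_fintype_card, card_fieldSub hK, hF.out, ← pow_mul, ← pow_mul, mul_comm]⟩
  let τ : K →+* K :=
    { toFun := fun k => ⟨adj (sig F q) 𝐡 k, adj_mem_of_closed ha k.2⟩
      map_one' := Subtype.ext isSesq_herm.adj_one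
      map_mul' := fun x y => Subtype.ext ((isSesq_herm.adj_mul _ _).trans
        (hK.comm _ (adj_mem_of_closed ha y.2) _ (adj_mem_of_closed ha x.2)))
      map_zero' := Subtype.ext isSesq_herm.adj_zero
      map_add' := fun x y => Subtype.ext (isSesq_herm.adj_add _ _) }
  obtain ⟨a, ha'⟩ := exists_cj_ne F q
  have := invol_eq_cj (q := q ^ r) τ (fun x => Subtype.ext (isSesq_herm.adj_adj _))
    (y := ⟨a • 1, K.smul_mem K.one_mem a⟩) (fun h => ha' (by
      have h1 : adj (sig F q) 𝐡 (a • 1) = a • 1 := congrArg Subtype.val h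
      rw [isSesq_herm.adj_smul, isSesq_herm.adj_one] at h1
      simpa [sig_apply] using congrFun (congrFun h1 ⟨0, hn⟩) ⟨0, hn⟩)) ⟨k, hk⟩
  exact congrArg Subtype.val this

theorem mem_SUG_iff_pow (hn : 0 < n) {K : Subalgebra F (Matrix (Fin n) (Fin n) F)}
    (hK : IsFieldSubalgebra n K) (ha : IsAdjointClosedFor 𝐡 K) {g : GL (Fin n) F}
    (hg : (g : Matrix (Fin n) (Fin n) F) ∈ K) :
    g ∈ SUG n F q ↔ g ^ (q ^ n + 1) = 1 ∧ g ^ (((q ^ 2) ^ n - 1) / (q ^ 2 - 1)) = 1 := by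
  haveI : Nonempty (Fin n) := ⟨⟨0, hn⟩⟩
  have h1 := det_smul_one_eq_pow (by simpa using hK) hg
  rw [Fintype.card_fin, hF.out] at h1
  rw [Subgroup.mem_inf, ← isoG_herm, mem_isoG_iff_adj isSesq_herm, adj_eq_pow hn hK ha hg,
    ← pow_succ, mem_sl, Units.ext_iff, Units.ext_iff, Units.val_pow_eq_pow_val,
    Units.val_pow_eq_pow_val, ← h1, Units.val_one]
  refine and_congr Iff.rfl ⟨fun h => by rw [h, one_smul], fun h => ?_⟩
  simpa using congrFun (congrFun h ⟨0, hn⟩) ⟨0, hn⟩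

omit [Fintype F] hF in
theorem mem_of_comm_field (hn : 0 < n) {K : Subalgebra F (Matrix (Fin n) (Fin n) F)}
    (hK : IsFieldSubalgebra n K) {x : Matrix (Fin n) (Fin n) F} (hx : ∀ k ∈ K, x * k = k * x) :
    x ∈ K := by
  have hv : (Pi.single ⟨0, hn⟩ 1 : Fin n → F) ≠ 0 := by simp
  have hs := (actV_bijective (K := K) (by simpa using hK) hv).2
  obtain ⟨k, hk⟩ := hs (x *ᵥ Pi.single ⟨0, hn⟩ 1)
  suffices x = k from this ▸ k.2
  refine matrix_ext_mulVec fun u => ?_
  obtain ⟨l, rfl⟩ := hs u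
  rw [actV_apply] at hk
  rw [actV_apply, mulVec_mulVec, hx l l.2, ← mulVec_mulVec, ← hk, mulVec_mulVec, mulVec_mulVec,
    hK.comm _ l.2 _ k.2]

omit hF in
/-- conjugation action of the normaliser of a field subalgebra -/
theorem exists_galHom {ι : Type} [Fintype ι] [DecidableEq ι] {K : Subalgebra F (Matrix ι ι F)}
    {H : Subgroup (GL ι F)} (hH : H ≤ subalgebraNormalizer K) :
    ∃ ρ : H →* (K ≃ₐ[F] K), ∀ h k, (ρ h k : Matrix ι ι F) = H98.cj (h : GL ι F) k := by
  let A : H → (K →ₐ[F] K) := fun h =>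
    ((H98.cj (h : GL ι F)).toAlgHom.comp K.val).codRestrict K fun k => (hH h.2 k).1 k.2
  have hA : ∀ h k, (A h k : Matrix ι ι F) = H98.cj (h : GL ι F) k := fun _ _ => rfl
  refine ⟨{ toFun := fun h => AlgEquiv.ofAlgHom (A h) (A h⁻¹)
              (AlgHom.ext fun k => Subtype.ext (cj_cj_inv _ _))
              (AlgHom.ext fun k => Subtype.ext (cj_inv_cj _ _))
            map_one' := AlgEquiv.ext fun k => Subtype.ext (by simp [hA, H98.cj_apply])
            map_mul' := fun a b => AlgEquiv.ext fun k => Subtype.ext (cj_mul _ _ _) },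
    fun _ _ => rfl⟩

theorem card_singer_dvd (hn : 0 < n) {K : Subalgebra F (Matrix (Fin n) (Fin n) F)}
    (hK : IsFieldSubalgebra n K) (ha : IsAdjointClosedFor 𝐡 K) {H : Subgroup (GL (Fin n) F)}
    (hH : H ≤ subalgebraNormalizer K) (hS : H ≤ SUG n F q) :
    Nat.card H ∣ n * Nat.gcd (q ^ n + 1) (((q ^ 2) ^ n - 1) / (q ^ 2 - 1)) := by
  haveI : Nonempty (Fin n) := ⟨⟨0, hn⟩⟩
  letI : Field K := (isField_of_isFld hK.comm hK.inv).toField
  obtain ⟨ρ, hρ⟩ := exists_galHom hH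
  have hk : ∀ h : ρ.ker, (((h : H) : GL (Fin n) F) : Matrix (Fin n) (Fin n) F) ∈ K := fun h =>
    mem_of_comm_field hn hK fun k hk => by
      have := hρ h ⟨k, hk⟩
      rw [h.2, H98.cj_apply] at this
      change k = _ at this
      conv_rhs => rw [this]
      rw [mul_assoc, Units.inv_mul, mul_one]
  let f : ρ.ker →* K :=
    { toFun := fun h => ⟨_, hk h⟩, map_one' := rfl, map_mul' := fun _ _ => rfl }
  haveI : IsCyclic ρ.ker := isCyclic_of_injective_ringHom f fun a b hab =>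
    Subtype.ext (Subtype.ext (Units.ext (congrArg Subtype.val hab)))
  rw [← Subgroup.index_mul_card ρ.ker, Subgroup.index_ker]
  refine Nat.mul_dvd_mul ?_ ?_
  · have := Subgroup.card_subgroup_dvd_card ρ.range
    rwa [IsGalois.card_aut_eq_finrank, hK.finrank_eq] at this
  · rw [← IsCyclic.exponent_eq_card, Monoid.exponent_dvd_iff_forall_pow_eq_one]
    intro h
    obtain ⟨h1, h2⟩ := (mem_SUG_iff_pow hn hK ha (hk h)).1 (hS h.1.2)
    exact Subtype.ext (Subtype.ext (pow_gcd_eq_one.2 ⟨h1, h2⟩))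

theorem exists_singer_sub (hn : 0 < n) {K : Subalgebra F (Matrix (Fin n) (Fin n) F)}
    (hK : IsFieldSubalgebra n K) (ha : IsAdjointClosedFor 𝐡 K) {p : ℕ} (hp : p.Prime)
    (h1 : p ∣ q ^ n + 1) (h2 : p ∣ ((q ^ 2) ^ n - 1) / (q ^ 2 - 1)) (h3 : p ∣ (q ^ 2) ^ n - 1) :
    ∃ T : Subgroup (GL (Fin n) F), T ≤ SUG n F q ∧ Nat.card T = p ∧
      subalgebraNormalizer K ≤ Subgroup.normalizer (T : Set (GL (Fin n) F)) := by
  haveI : Nonempty (Fin n) := ⟨⟨0, hn⟩⟩
  letI : Field K := (isField_of_isFld hK.comm hK.inv).toField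
  haveI := Fact.mk hp
  haveI : NeZero p := ⟨hp.ne_zero⟩
  obtain ⟨x, hx⟩ := exists_prime_orderOf_dvd_card' (G := Kˣ) p
    (by rw [Nat.card_units, card_fieldSub hK, hF.out]; exact h3)
  let j : Kˣ →* GL (Fin n) F := Units.map K.val.toRingHom.toMonoidHom
  have hj : Function.Injective j := Units.map_injective Subtype.val_injective
  have ho : orderOf (j x) = p := by rw [orderOf_injective j hj, hx]
  have hxp : j x ^ p = 1 := by rw [← ho, pow_orderOf_eq_one]
  refine ⟨Subgroup.zpowers (j x), Subgroup.zpowers_le.2 ?_, by rw [Nat.card_zpowers, ho],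
    fun g hg => Subgroup.mem_normalizer_fintype ?_⟩
  · refine (mem_SUG_iff_pow hn hK ha (x : K).2).2 ⟨?_, ?_⟩
    · exact orderOf_dvd_iff_pow_eq_one.1 (ho ▸ h1)
    · exact orderOf_dvd_iff_pow_eq_one.1 (ho ▸ h2)
  · rintro _ ⟨m, rfl⟩
    have h4 : g * j x * g⁻¹ ∈ Subgroup.zpowers (j x) := by
      have h5 : IsPrimitiveRoot (x : K) p := by
        rw [← hx, ← orderOf_units]; exact IsPrimitiveRoot.orderOf _
      obtain ⟨i, -, hi⟩ := h5.eq_pow_of_pow_eq_one
        (ξ := ⟨H98.cj g ((x : K) : Matrix (Fin n) (Fin n) F), (hg _).1 (x : K).2⟩) (Subtype.ext (by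
          rw [SubmonoidClass.coe_pow, ← map_pow]
          exact (congrArg (H98.cj g) (congrArg Units.val hxp)).trans (map_one _)))
      refine ⟨i, Units.ext ?_⟩
      simp only [zpow_natCast]
      exact congrArg Subtype.val hi
    rw [← conj_zpow]
    exact Subgroup.zpow_mem _ h4 m

theorem sylow_transport (K : Type*) [Field K] [Fintype K] [Fact (Fintype.card K = q ^ 2)]
    {H T : Subgroup (GL (Fin n) F)} (hH : IsMaximalIn (SUG n F q) H) (hT : T ≤ SUG n F q)
    (hHT : H ≤ Subgroup.normalizer (T : Set (GL (Fin n) F))) :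
    ∃ H' T' : Subgroup (GL (Fin n) K), IsMaximalIn (SUG n K q) H' ∧ T' ≤ SUG n K q ∧
      H' ≤ Subgroup.normalizer (T' : Set (GL (Fin n) K)) ∧ Nat.card H' = Nat.card H ∧
      Nat.card T' = Nat.card T := by
  obtain ⟨φ, hφ⟩ := exists_transport K hH
  refine ⟨_, T.comap (glMap (Fin n) φ).toMonoidHom, hφ, fun g hg => (glMap_mem_SUG φ).1 (hT hg),
    fun g hg x => ?_,
    Nat.card_congr (Equiv.subtypeEquiv (glMap (Fin n) φ).toEquiv fun _ => Iff.rfl),
    Nat.card_congr (Equiv.subtypeEquiv (glMap (Fin n) φ).toEquiv fun _ => Iff.rfl)⟩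
  have := hHT hg ((glMap (Fin n) φ).toMonoidHom x)
  rw [← map_inv, ← map_mul, ← map_mul] at this
  exact this

theorem le_of_prime_index {G : Type*} [Group G] [Finite G] {H M : Subgroup G} {c u : G} {r : ℕ}
    (hr : r.Prime) (hc : c ∈ H) (hu : u ∈ H) (hcard : Nat.card H ∣ r * orderOf c)
    (hcu : u * c ≠ c * u) (hcM : c ∈ M) (huM : u ∈ M) : H ≤ M := by
  have h1 : Subgroup.zpowers c ≤ H ⊓ M := Subgroup.zpowers_le.2 ⟨hc, hcM⟩
  obtain ⟨d, hd⟩ := Subgroup.card_dvd_of_le h1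
  have h2 := (Subgroup.card_dvd_of_le (inf_le_left : H ⊓ M ≤ H)).trans hcard
  rw [Nat.card_zpowers] at hd
  rw [hd, mul_comm r, Nat.mul_dvd_mul_iff_left (orderOf_pos c)] at h2
  rcases (Nat.dvd_prime hr).1 h2 with rfl | rfl
  · have h3 := Subgroup.eq_of_le_of_card_ge h1 (by rw [hd, Nat.card_zpowers, mul_one])
    obtain ⟨k, rfl⟩ := h3.ge ⟨hu, huM⟩
    exact absurd ((Commute.refl c).zpow_left k).eq hcu
  · have h3 := Subgroup.eq_of_le_of_card_ge (inf_le_left : H ⊓ M ≤ H) (by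
      rw [hd, mul_comm]; exact Nat.le_of_dvd (Nat.mul_pos hr.pos (orderOf_pos c)) hcard)
    exact h3.ge.trans inf_le_right

theorem mem_normalizer_zpowers {G : Type*} [Group G] [Finite G] {t u : G} {k : ℕ}
    (h : u * t = t ^ k * u) : u ∈ Subgroup.normalizer (Subgroup.zpowers t : Set G) := by
  refine Subgroup.mem_normalizer_fintype ?_
  rintro _ ⟨m, rfl⟩
  rw [← conj_zpow, h, mul_inv_cancel_right]
  exact Subgroup.zpow_mem _ (Subgroup.pow_mem _ (Subgroup.mem_zpowers t) k) m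

/-- non-maximality of a Singer normaliser from an explicit overgroup -/
theorem singer_model {G : Type*} [Group G] [Finite G] {S H T M : Subgroup G} {p r k : ℕ}
    (hp : p.Prime) (hr : r.Prime) (hH : IsMaximalIn S H) (hT : T ≤ S) (hTc : Nat.card T = p)
    (hf : (Nat.card S).factorization p = 1) (hHT : H ≤ Subgroup.normalizer (T : Set G))
    {t c u g : G} (hcard : Nat.card H ∣ r * orderOf c) (ht : orderOf t = p) (htS : t ∈ S)
    (hcS : c ∈ S) (huS : u ∈ S) (hgS : g ∈ S) (hct : c * t = t * c) (hut : u * t = t ^ k * u)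
    (hcu : u * c ≠ c * u) (hcM : c ∈ M) (huM : u ∈ M) (hgM : g ∈ M) (hS : ¬ S ≤ M)
    (hg : ∀ i < p, g * t ≠ t ^ i * g) : False := by
  classical
  haveI := Fact.mk hp
  refine not_maximal_of_sylow (p := p) (T₀ := Subgroup.zpowers t) hH hT (by rw [hf, pow_one, hTc])
    (Subgroup.zpowers_le.2 htS) (by rw [Nat.card_zpowers, ht, hTc]) hHT (fun H' h1 h2 => ?_) hS
    hgS hgM fun h => ?_
  · exact le_of_prime_index hr (h2.ge ⟨mem_normalizer_zpowers (k := 1) (by rw [pow_one, hct]), hcS⟩)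
      (h2.ge ⟨mem_normalizer_zpowers hut, huS⟩) (h1 ▸ hcard) hcu hcM huM
  · have h1 := (h t).1 (Subgroup.mem_zpowers t)
    rw [SetLike.mem_coe, mem_zpowers_iff_mem_range_orderOf, Finset.mem_image] at h1
    obtain ⟨i, hi, h2⟩ := h1
    exact hg i (ht ▸ Finset.mem_range.1 hi) (by rw [h2, inv_mul_cancel_right])

end Cfsg.Agent.H10
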